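import Cfsg.Agent.H197.OreF.Main

/-!
# S4173, `F₄(2)`: two fixed classes (helper197)

`tc_F4_two` is `Cfsg.Agent.H140.TC.TC ↥(chevF4.group K)` written out.
-/

set_option autoImplicit false

namespace Cfsg.Agent.H197.OreF

open Cfsg.Lie

/-- **S4173, `F₄(2)`** -/
theorem tc_F4_two {K : Type*} [Field K] [Fintype K] (hK : Fintype.card K = 2) :
    ∃ a b : ↥(chevF4.group K), ∀ g : ↥(chevF4.group K), g ≠ 1 →
      ∃ u v : ↥(chevF4.group K), g = (u * a * u⁻¹) * (v * b * v⁻¹) := by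
  obtain ⟨c, z, -, -, h⟩ := square_F4_two hK
  exact ⟨c, c, fun g _ => h g⟩

end Cfsg.Agent.H197.OreF
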